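import Mathlib.LinearAlgebra.Matrix.SpecialLinearGroup
import Mathlib.LinearAlgebra.CrossProduct
import Mathlib.Tactic

/-!
# Normal forms under conjugation in `SL(3, F)` with prescribed leading minors
-/

set_option autoImplicit false

namespace Cfsg.Agent.Lib.SL3Cover

open Matrix

variable {F : Type*} [Field F]

local notation "SL3" => Matrix.SpecialLinearGroup (Fin 3) F

theorem conj_eq_of_mul_eq {g P M : SL3}
    (h : (g : Matrix (Fin 3) (Fin 3) F) * (P : Matrix (Fin 3) (Fin 3) F) =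
      (P : Matrix (Fin 3) (Fin 3) F) * (M : Matrix (Fin 3) (Fin 3) F)) :
    P⁻¹ * g * P = M := by
  have h' : g * P = P * M := Subtype.ext h
  rw [mul_assoc, h', inv_mul_cancel_left]

theorem exists_vec {g : SL3} (hg : g ∉ Subgroup.center SL3) :
    ∃ v : Fin 3 → F, crossProduct v ((g : Matrix (Fin 3) (Fin 3) F).mulVec v) ≠ 0 := by
  by_contra hc
  push Not at hc
  apply hg
  set G : Matrix (Fin 3) (Fin 3) F := (g : Matrix (Fin 3) (Fin 3) F) with hG
  have h0 := hc ![1, 0, 0]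
  have h1 := hc ![0, 1, 0]
  have h2 := hc ![0, 0, 1]
  have h3 := hc ![1, 1, 0]
  have h4 := hc ![1, 0, 1]
  simp [cross_apply, Matrix.mulVec, dotProduct, Fin.sum_univ_three] at h0 h1 h2 h3 h4
  have e00 : G 1 1 = G 0 0 := by
    rcases h3 with ⟨_, _, hz⟩
    linear_combination hz - h0.2 + h1.2
  have e01 : G 2 2 = G 0 0 := by
    rcases h4 with ⟨_, hy, _⟩
    linear_combination -hy + h2.2 - h0.1
  refine Subgroup.mem_center_iff.mpr fun h => Subtype.ext ?_
  have hs : G = Matrix.scalar (Fin 3) (G 0 0) := by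
    ext1 i j
    fin_cases i <;> fin_cases j <;> simp [h0, h1, h2, e00, e01]
  change (h : Matrix (Fin 3) (Fin 3) F) * G = G * (h : Matrix (Fin 3) (Fin 3) F)
  rw [hs]
  exact (Matrix.scalar_commute (G 0 0) (fun r => Commute.all _ r) (h : Matrix (Fin 3) (Fin 3) F)).eq.symm

/-- First normal form: prescribed corner entry. -/
theorem exists_normal_one {g : SL3} (hg : g ∉ Subgroup.center SL3) (h1 : F) :
    ∃ P : SL3, ((P⁻¹ * g * P : SL3) : Matrix (Fin 3) (Fin 3) F) 0 0 = h1 ∧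
      ((P⁻¹ * g * P : SL3) : Matrix (Fin 3) (Fin 3) F) 1 0 = 1 ∧
      ((P⁻¹ * g * P : SL3) : Matrix (Fin 3) (Fin 3) F) 2 0 = 0 := by
  classical
  obtain ⟨v, hv⟩ := exists_vec hg
  set G : Matrix (Fin 3) (Fin 3) F := (g : Matrix (Fin 3) (Fin 3) F)
  set w : Fin 3 → F := G.mulVec v - h1 • v with hw
  set c : Fin 3 → F := crossProduct v (G.mulVec v) with hc
  obtain ⟨k, hk⟩ : ∃ k, c k ≠ 0 := by
    by_contra h
    push Not at h
    exact hv (funext h)
  let z : Fin 3 → F := Pi.single k (c k)⁻¹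
  have hdet : (Matrix.of fun i j => ![v, w, z] j i).det = 1 := by
    rw [Matrix.det_fin_three]
    simp only [Matrix.of_apply, Matrix.cons_val_zero, Matrix.cons_val_one, Matrix.cons_val]
    have e : (c 0 * z 0 + c 1 * z 1 + c 2 * z 2) = 1 := by
      simp only [z, Pi.single_apply]
      fin_cases k <;> simp [mul_inv_cancel₀ hk] <;> exact mul_inv_cancel₀ hk
    rw [← e, hc, cross_apply, hw]
    simp only [Pi.sub_apply, Pi.smul_apply, smul_eq_mul, Matrix.cons_val_zero, Matrix.cons_val_one, Matrix.cons_val]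
    ring
  refine ⟨⟨_, hdet⟩, ?_⟩
  set P : SL3 := ⟨_, hdet⟩ with hP
  have hcol : ((P⁻¹ * g * P : SL3) : Matrix (Fin 3) (Fin 3) F).mulVec (Pi.single 0 1) =
      h1 • (Pi.single 0 1 : Fin 3 → F) + Pi.single 1 1 := by
    have e : ((g * P : SL3) : Matrix (Fin 3) (Fin 3) F).mulVec (Pi.single 0 1) =
        (P : Matrix (Fin 3) (Fin 3) F).mulVec (h1 • (Pi.single 0 1 : Fin 3 → F) + Pi.single 1 1) := by
      rw [Matrix.mulVec_add, Matrix.mulVec_smul, Matrix.SpecialLinearGroup.coe_mul, ← Matrix.mulVec_mulVec]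
      simp only [Matrix.mulVec_single_one, hP]
      funext i
      simp [Matrix.col, hw, G, Matrix.mulVec, dotProduct]
    rw [mul_assoc, Matrix.SpecialLinearGroup.coe_mul, ← Matrix.mulVec_mulVec, e, Matrix.mulVec_mulVec,
      ← Matrix.SpecialLinearGroup.coe_mul, inv_mul_cancel, Matrix.SpecialLinearGroup.coe_one, Matrix.one_mulVec]
  rw [Matrix.mulVec_single_one] at hcol
  refine ⟨?_, ?_, ?_⟩
  · simpa [Matrix.col] using congrFun hcol 0
  · simpa [Matrix.col] using congrFun hcol 1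
  · simpa [Matrix.col] using congrFun hcol 2

/-- Normal form with prescribed leading minors `h1` and `m`. -/
theorem exists_normal {g : SL3} (hg : g ∉ Subgroup.center SL3) (h1 m : F) :
    ∃ P : SL3, ∀ M : Matrix (Fin 3) (Fin 3) F, M = ((P⁻¹ * g * P : SL3) : Matrix (Fin 3) (Fin 3) F) →
      M 0 0 = h1 ∧ M 1 0 = 1 ∧ (M 2 0 = 0 ∨ M 2 0 = 1) ∧ M 0 0 * M 1 1 - M 0 1 * M 1 0 = m := by
  obtain ⟨P, e0, e1, e2⟩ := exists_normal_one hg h1
  obtain ⟨M, hMdet⟩ : {M : Matrix (Fin 3) (Fin 3) F // M = ((P⁻¹ * g * P : SL3) : Matrix (Fin 3) (Fin 3) F)} :=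
    ⟨_, rfl⟩
  rw [← hMdet] at e0 e1 e2
  have hd : M.det = 1 := hMdet ▸ (P⁻¹ * g * P).2
  rw [Matrix.det_fin_three] at hd
  by_cases hE : M 2 1 = 0
  · have hl : M 2 2 ≠ 0 := by
      intro h
      rw [e2, hE, h] at hd
      simp at hd
    let x : F := (M 0 0 * M 1 1 - M 0 1 - M 0 0 * M 1 2 + M 0 2 - m) / M 2 2
    let Q : SL3 := ⟨!![1, -x, x; 0, 1, 0; 0, -1, 1], by rw [Matrix.det_fin_three]; simp⟩
    let M' : SL3 := ⟨!![h1, -x * h1 + M 0 1 - M 0 2 + x * M 2 2, x * h1 + M 0 2 - x * M 2 2;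
        1, -x + M 1 1 - M 1 2, x + M 1 2;
        1, -x + M 1 1 - M 1 2 - M 2 2, x + M 1 2 + M 2 2], by
      rw [Matrix.det_fin_three]; simp
      rw [e0, e1, e2, hE] at hd
      linear_combination hd⟩
    refine ⟨P * Q, fun N hN => ?_⟩
    have h : (P * Q)⁻¹ * g * (P * Q) = M' := by
      rw [show (P * Q)⁻¹ * g * (P * Q) = Q⁻¹ * (P⁻¹ * g * P) * Q by group]
      refine conj_eq_of_mul_eq ?_
      rw [← hMdet]
      change M * !![1, -x, x; 0, 1, 0; 0, -1, 1] = !![1, -x, x; 0, 1, 0; 0, -1, 1] * (M' : Matrix _ _ F)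
      ext1 i j
      fin_cases i <;> fin_cases j <;>
        simp [M', Matrix.mul_apply, Fin.sum_univ_three, e0, e1, e2, hE] <;> ring
    rw [h] at hN
    subst hN
    refine ⟨by simp [M'], by simp [M'], Or.inr (by simp [M']), ?_⟩
    have hx : x * M 2 2 = h1 * M 1 1 - M 0 1 - h1 * M 1 2 + M 0 2 - m := by
      simp only [x]
      rw [div_mul_cancel₀ _ hl, e0]
    simp [M']
    linear_combination -hx
  · let x : F := (m - (h1 * M 1 1 - M 0 1)) / M 2 1
    let Q : SL3 := ⟨!![1, 0, x; 0, 1, 0; 0, 0, 1], by rw [Matrix.det_fin_three]; simp⟩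
    let M' : SL3 := ⟨!![h1, M 0 1 - x * M 2 1, M 0 2 - x * M 2 2 + x * h1;
        1, M 1 1, M 1 2 + x;
        0, M 2 1, M 2 2], by
      rw [Matrix.det_fin_three]; simp
      rw [e0, e1, e2] at hd
      linear_combination hd⟩
    refine ⟨P * Q, fun N hN => ?_⟩
    have h : (P * Q)⁻¹ * g * (P * Q) = M' := by
      rw [show (P * Q)⁻¹ * g * (P * Q) = Q⁻¹ * (P⁻¹ * g * P) * Q by group]
      refine conj_eq_of_mul_eq ?_
      rw [← hMdet]
      change M * !![1, 0, x; 0, 1, 0; 0, 0, 1] = !![1, 0, x; 0, 1, 0; 0, 0, 1] * (M' : Matrix _ _ F)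
      ext1 i j
      fin_cases i <;> fin_cases j <;>
        simp [M', Matrix.mul_apply, Fin.sum_univ_three, e0, e1, e2] <;> ring
    rw [h] at hN
    subst hN
    refine ⟨by simp [M'], by simp [M'], Or.inl (by simp [M']), ?_⟩
    have hx : x * M 2 1 = m - (h1 * M 1 1 - M 0 1) := by
      simp only [x]
      rw [div_mul_cancel₀ _ hE]
    simp [M']
    linear_combination hx

/-- The diagonal element with eigenvalues `a`, `a⁻¹`, `1`. -/
def diag3 (a : F) (ha : a ≠ 0) : SL3 :=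
  ⟨!![a, 0, 0; 0, a⁻¹, 0; 0, 0, 1], by rw [Matrix.det_fin_three]; simp [mul_inv_cancel₀ ha]⟩

theorem square_class_covers {a : F} (ha : a ≠ 0) (h1 : a ≠ 1) (h2 : a * a ≠ 1) {g : SL3}
    (hg : g ∉ Subgroup.center SL3) :
    ∃ u v : SL3, g = (u * diag3 a ha * u⁻¹) * (v * diag3 a ha * v⁻¹) := by
  obtain ⟨P, hP⟩ := exists_normal hg (a * a) 1
  obtain ⟨e0, e1, _, e3⟩ := hP _ rfl
  set Mg : SL3 := P⁻¹ * g * P with hMg
  set M : Matrix (Fin 3) (Fin 3) F := (Mg : Matrix (Fin 3) (Fin 3) F) with hM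
  have hd : M.det = 1 := Mg.2
  rw [Matrix.det_fin_three] at hd
  have hb : a - a⁻¹ ≠ 0 := by
    intro h
    apply h2
    field_simp at h
    linear_combination h
  have hc : a⁻¹ - 1 ≠ 0 := by
    intro h
    apply h1
    field_simp at h
    linear_combination -h
  have hd1 : a - 1 ≠ 0 := sub_ne_zero.mpr h1
  have e11 : M 1 1 = (1 + M 0 1 * M 1 0) / (a * a) := by
    field_simp
    rw [e0] at e3
    linear_combination e3
  set l21 := M 1 0 / a with hl21
  set l31 := M 2 0 / a with hl31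
  set u12 := M 0 1 / a with hu12
  set u13 := M 0 2 / a with hu13
  set l32 := (M 2 1 - l31 * u12) * a with hl32
  set u23 := (M 1 2 - l21 * u13) * a with hu23
  let L : SL3 := ⟨!![a, 0, 0; l21, a⁻¹, 0; l31, l32, 1], by rw [Matrix.det_fin_three]; simp [mul_inv_cancel₀ ha]⟩
  let U : SL3 := ⟨!![a, u12, u13; 0, a⁻¹, u23; 0, 0, 1], by rw [Matrix.det_fin_three]; simp [mul_inv_cancel₀ ha]⟩
  have hLU : Mg = L * U := by
    refine Subtype.ext ?_
    change M = !![a, 0, 0; l21, a⁻¹, 0; l31, l32, 1] * !![a, u12, u13; 0, a⁻¹, u23; 0, 0, 1]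
    ext1 i j
    fin_cases i <;> fin_cases j <;> simp [Matrix.mul_apply, Fin.sum_univ_three]
    · exact e0
    · rw [hu12]; field_simp
    · rw [hu13]; field_simp
    · rw [hl21]; field_simp
    · rw [e11, hl21, hu12, e1]; field_simp; ring
    · rw [hu23]; field_simp; ring
    · rw [hl31]; field_simp
    · rw [hl32]; field_simp; ring
    · rw [e0, e1, e11] at hd
      rw [hl32, hu23, hl31, hu12, hu13, hl21, e1]
      field_simp at hd ⊢
      linear_combination hd - (a ^ 2 * M 2 2 * M 0 1 - M 2 0 * M 0 2 * M 0 1) * e1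
  set p21 := l21 / (a - a⁻¹) with hp21
  set p32 := l32 / (a⁻¹ - 1) with hp32
  let PL : SL3 := ⟨!![1, 0, 0; p21, 1, 0; (l31 + l32 * p21) / (a - 1), p32, 1], by
    rw [Matrix.det_fin_three]; simp⟩
  have hLc : L = PL * diag3 a ha * PL⁻¹ := by
    rw [eq_mul_inv_iff_mul_eq]
    refine Subtype.ext ?_
    change !![a, 0, 0; l21, a⁻¹, 0; l31, l32, 1] * !![1, 0, 0; p21, 1, 0; (l31 + l32 * p21) / (a - 1), p32, 1] =
      !![1, 0, 0; p21, 1, 0; (l31 + l32 * p21) / (a - 1), p32, 1] * !![a, 0, 0; 0, a⁻¹, 0; 0, 0, 1]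
    have k1 : p21 * (a - a⁻¹) = l21 := div_mul_cancel₀ _ hb
    have k2 : p32 * (a⁻¹ - 1) = l32 := div_mul_cancel₀ _ hc
    have k3 : (l31 + l32 * p21) / (a - 1) * (a - 1) = l31 + l32 * p21 := div_mul_cancel₀ _ hd1
    ext1 i j
    fin_cases i <;> fin_cases j <;> simp [Matrix.mul_apply, Fin.sum_univ_three]
    · linear_combination -k1
    · linear_combination -k3
    · linear_combination -k2
  set q12 := u12 / (a⁻¹ - a) with hq12
  set q23 := u23 / (1 - a⁻¹) with hq23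
  let PU : SL3 := ⟨!![1, q12, (u13 + u12 * q23) / (1 - a); 0, 1, q23; 0, 0, 1], by
    rw [Matrix.det_fin_three]; simp⟩
  have hUc : U = PU * diag3 a ha * PU⁻¹ := by
    rw [eq_mul_inv_iff_mul_eq]
    refine Subtype.ext ?_
    change !![a, u12, u13; 0, a⁻¹, u23; 0, 0, 1] * !![1, q12, (u13 + u12 * q23) / (1 - a); 0, 1, q23; 0, 0, 1] =
      !![1, q12, (u13 + u12 * q23) / (1 - a); 0, 1, q23; 0, 0, 1] * !![a, 0, 0; 0, a⁻¹, 0; 0, 0, 1]
    have k1 : q12 * (a⁻¹ - a) = u12 := div_mul_cancel₀ _ (sub_ne_zero.mpr fun h => hb (sub_eq_zero.mpr h.symm))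
    have k2 : q23 * (1 - a⁻¹) = u23 := div_mul_cancel₀ _ (sub_ne_zero.mpr fun h => hc (sub_eq_zero.mpr h.symm))
    have k3 : (u13 + u12 * q23) / (1 - a) * (1 - a) = u13 + u12 * q23 :=
      div_mul_cancel₀ _ (sub_ne_zero.mpr (Ne.symm h1))
    ext1 i j
    fin_cases i <;> fin_cases j <;> simp [Matrix.mul_apply, Fin.sum_univ_three]
    · linear_combination -k1
    · linear_combination -k3
    · linear_combination -k2
  refine ⟨P * PL, P * PU, ?_⟩
  calc g = P * Mg * P⁻¹ := by rw [hMg]; group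
    _ = P * (L * U) * P⁻¹ := by rw [hLU]
    _ = _ := by rw [hLc, hUc]; group

end Cfsg.Agent.Lib.SL3Cover
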