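import Cfsg.Agent.Lib.SL3Cover.Gauss
import Cfsg.Agent.Lib.SL3Cover.Table
import Mathlib.Algebra.Field.ZMod
import Mathlib.GroupTheory.OrderOfElement

/-!
# An element of order four whose class squares onto the nonidentity elements of `SL(3, 3)`
-/

set_option autoImplicit false

namespace Cfsg.Agent.Lib.SL3Cover

local notation "S3" => Matrix.SpecialLinearGroup (Fin 3) (ZMod 3)

local instance : Fact (Nat.Prime 3) := ⟨Nat.prime_three⟩

/-- Nine natural numbers read as a 3 by 3 array. -/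
structure T9 where
  a : ℕ
  b : ℕ
  c : ℕ
  d : ℕ
  e : ℕ
  f : ℕ
  g : ℕ
  h : ℕ
  i : ℕ

namespace T9

def dec (k : ℕ) : T9 :=
  ⟨k % 3, k / 3 % 3, k / 9 % 3, k / 27 % 3, k / 81 % 3, k / 243 % 3, k / 729 % 3, k / 2187 % 3, k / 6561 % 3⟩

def mul (x y : T9) : T9 :=
  ⟨(x.a * y.a + x.b * y.d + x.c * y.g) % 3, (x.a * y.b + x.b * y.e + x.c * y.h) % 3, (x.a * y.c + x.b * y.f + x.c * y.i) % 3,
   (x.d * y.a + x.e * y.d + x.f * y.g) % 3, (x.d * y.b + x.e * y.e + x.f * y.h) % 3, (x.d * y.c + x.e * y.f + x.f * y.i) % 3,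
   (x.g * y.a + x.h * y.d + x.i * y.g) % 3, (x.g * y.b + x.h * y.e + x.i * y.h) % 3, (x.g * y.c + x.h * y.f + x.i * y.i) % 3⟩

def adj (x : T9) : T9 :=
  ⟨(x.e * x.i + 2 * (x.f * x.h)) % 3, (x.c * x.h + 2 * (x.b * x.i)) % 3, (x.b * x.f + 2 * (x.c * x.e)) % 3,
   (x.f * x.g + 2 * (x.d * x.i)) % 3, (x.a * x.i + 2 * (x.c * x.g)) % 3, (x.c * x.d + 2 * (x.a * x.f)) % 3,
   (x.d * x.h + 2 * (x.e * x.g)) % 3, (x.b * x.g + 2 * (x.a * x.h)) % 3, (x.a * x.e + 2 * (x.b * x.d)) % 3⟩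

def det (x : T9) : ℕ :=
  (x.a * x.e * x.i + x.b * x.f * x.g + x.c * x.d * x.h +
    2 * (x.c * x.e * x.g + x.b * x.d * x.i + x.a * x.f * x.h)) % 3

def beq (x y : T9) : Bool :=
  x.a == y.a && x.b == y.b && x.c == y.c && x.d == y.d && x.e == y.e && x.f == y.f && x.g == y.g && x.h == y.h && x.i == y.i

theorem eq_of_beq' {x y : T9} (h : beq x y = true) : x = y := by
  cases x; cases y
  simp [beq] at h
  simp [h]

def val (x : T9) : Matrix (Fin 3) (Fin 3) (ZMod 3) :=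
  !![(x.a : ZMod 3), x.b, x.c; x.d, x.e, x.f; x.g, x.h, x.i]

theorem val_mul (x y : T9) : val (mul x y) = val x * val y := by
  ext1 i j
  fin_cases i <;> fin_cases j <;> simp [val, mul, Matrix.mul_apply, Fin.sum_univ_three, ZMod.natCast_mod]

theorem det_val (x : T9) : (val x).det = (det x : ZMod 3) := by
  have h2 : (2 : ZMod 3) = -1 := rfl
  rw [Matrix.det_fin_three]
  simp [val, det, ZMod.natCast_mod, h2]
  ring

theorem val_adj (x : T9) : val (adj x) = (val x).adjugate := by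
  have h2 : (2 : ZMod 3) = -1 := rfl
  rw [Matrix.adjugate_fin_three]
  ext1 i j
  fin_cases i <;> fin_cases j <;> simp [val, adj, ZMod.natCast_mod, h2] <;> ring

/-- The normal form with index `k`. -/
def form (k : ℕ) : T9 := ⟨0, 2, k / 3 % 3, 1, k % 3, k / 9 % 3, k / 243, k / 27 % 3, k / 81 % 3⟩

/-- The element of order four. -/
def x0 : T9 := ⟨0, 0, 1, 0, 1, 0, 2, 0, 0⟩

def check (k : ℕ) : Bool :=
  det (form k) != 1 ||
    (let u := dec (certs.getD k (0, 0)).1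
     let v := dec (certs.getD k (0, 0)).2
     det u == 1 && det v == 1 && beq (form k) (mul (mul (mul u x0) (adj u)) (mul (mul v x0) (adj v))))

theorem check_all : (List.range 486).all check = true := by decide +kernel

end T9

/-- The element of order four in `SL(3, 3)`. -/
def x4 : S3 := ⟨T9.val T9.x0, by rw [T9.det_val]; rfl⟩

theorem x4_pow : x4 ^ 4 = 1 := by decide +kernel

theorem three_not_dvd_orderOf : ¬ 3 ∣ orderOf x4 := fun h =>
  absurd (dvd_trans h (orderOf_dvd_of_pow_eq_one x4_pow)) (by norm_num)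

theorem covers_three {g : S3} (hg : g ≠ 1) :
    ∃ u v : S3, g = (u * x4 * u⁻¹) * (v * x4 * v⁻¹) := by
  have hc : g ∉ Subgroup.center S3 := by
    intro h
    apply hg
    obtain ⟨r, hr, he⟩ := Matrix.SpecialLinearGroup.mem_center_iff.mp h
    have hr' : ∀ s : ZMod 3, s ^ 3 = 1 → s = 1 := by decide
    rw [Fintype.card_fin] at hr
    refine Subtype.ext ?_
    rw [← he, hr' r hr, map_one]
    rfl
  obtain ⟨P, hP⟩ := exists_normal hc 0 1
  obtain ⟨e0, e1, e2, e3⟩ := hP _ rfl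
  generalize hMg : P⁻¹ * g * P = Mg at e0 e1 e2 e3
  set M : Matrix (Fin 3) (Fin 3) (ZMod 3) := (Mg : Matrix (Fin 3) (Fin 3) (ZMod 3)) with hM
  have e01 : M 0 1 = 2 := by
    rw [e0, e1, zero_mul, mul_one, zero_sub] at e3
    have : ∀ s : ZMod 3, -s = 1 → s = 2 := by decide
    exact this _ e3
  obtain ⟨s, hs, hs2⟩ : ∃ s : ℕ, s < 2 ∧ M 2 0 = (s : ZMod 3) := by
    rcases e2 with h | h
    · exact ⟨0, by norm_num, by simp [h]⟩
    · exact ⟨1, by norm_num, by simp [h]⟩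
  let k : ℕ := (M 1 1).val + 3 * (M 0 2).val + 9 * (M 1 2).val + 27 * (M 2 1).val + 81 * (M 2 2).val + 243 * s
  have b1 := ZMod.val_lt (M 1 1); have b2 := ZMod.val_lt (M 0 2); have b3 := ZMod.val_lt (M 1 2)
  have b4 := ZMod.val_lt (M 2 1); have b5 := ZMod.val_lt (M 2 2)
  have hform : T9.form k = ⟨0, 2, (M 0 2).val, 1, (M 1 1).val, (M 1 2).val, s, (M 2 1).val, (M 2 2).val⟩ := by
    simp only [T9.form, T9.mk.injEq, k, true_and, and_true]
    refine ⟨?_, ?_, ?_, ?_, ?_, ?_⟩ <;> omega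
  have hval : T9.val (T9.form k) = M := by
    rw [hform]
    ext1 i j
    fin_cases i <;> fin_cases j <;> simp [T9.val, e0, e1, e01, hs2, ZMod.natCast_val, ZMod.cast_id]
  have hdet : T9.det (T9.form k) = 1 := by
    have h1 : ((T9.det (T9.form k) : ℕ) : ZMod 3) = ((1 : ℕ) : ZMod 3) := by
      rw [← T9.det_val, hval, Nat.cast_one]
      exact Mg.2
    rw [ZMod.natCast_eq_natCast_iff'] at h1
    simpa [T9.det] using h1
  have hk : k < 486 := by simp only [k]; omega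
  have hck : T9.check k = true := List.all_eq_true.mp T9.check_all k (List.mem_range.mpr hk)
  simp only [T9.check, hdet, bne_self_eq_false, Bool.false_or, Bool.and_eq_true, beq_iff_eq] at hck
  obtain ⟨⟨hu, hv⟩, hprod⟩ := hck
  have hdet1 : ∀ z : T9, T9.det z = 1 → (T9.val z).det = 1 := fun z hz => by rw [T9.det_val, hz, Nat.cast_one]
  let u : S3 := ⟨_, hdet1 _ hu⟩
  let v : S3 := ⟨_, hdet1 _ hv⟩
  have hM2 : Mg = (u * x4 * u⁻¹) * (v * x4 * v⁻¹) := by
    refine Subtype.ext ?_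
    change M = _
    rw [← hval, T9.eq_of_beq' hprod]
    simp only [T9.val_mul, T9.val_adj, Matrix.SpecialLinearGroup.coe_mul, Matrix.SpecialLinearGroup.coe_inv]
    rfl
  refine ⟨P * u, P * v, ?_⟩
  calc g = P * Mg * P⁻¹ := by rw [← hMg]; group
    _ = _ := by rw [hM2]; group

end Cfsg.Agent.Lib.SL3Cover
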